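import Cfsg.Agent.Lib.Perm27.Sharp3
import Cfsg.Agent.Lib.FGS.FrobCount
import Cfsg.Agent.Lib.GL.ProjLine

/-! Numbers of elements of given order in a sharply 3-transitive group. -/

set_option autoImplicit false
set_option linter.unusedSectionVars false

namespace H15.NP

open MulAction Subgroup H27
open scoped MatrixGroups LinearAlgebra.Projectivization

/-- the number of elements of order `k` -/
noncomputable def nb (G : Type*) [Group G] (k : ℕ) : ℕ := {g : G | orderOf g = k}.ncard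

variable {G Ω : Type*} [Group G] [MulAction G Ω] [Finite G] {a b : Ω} {q : ℕ}

theorem ord2 {t : G} : orderOf t = 2 ↔ t * t = 1 ∧ t ≠ 1 := by
  rw [orderOf_eq_prime_iff, sq]

section
variable (hS : Sharp3 G Ω) (hb : b ≠ a) (hΩ : Nat.card Ω = q + 1) (h3 : 3 ≤ q)
include hS hb hΩ h3

theorem stab2 : Nat.card (stabilizer G a ⊓ stabilizer G b : Subgroup G) = q - 1 := by
  have := hS.finite
  obtain ⟨c, hca, hcb⟩ := Sharp3.exists_third (Ω := Ω) (by omega) a b
  rw [hS.card_stab2 hb hca hcb, hΩ]; omega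

theorem sw_card : {t : G | t • a = b ∧ t • b = a}.ncard = q - 1 := by
  obtain ⟨s, s1, s2⟩ := hS.two a b b a hb.symm hb
  rw [← stab2 hS hb hΩ h3, ← Set.ncard_image_of_injective _ (mul_right_injective s⁻¹),
    ← SetLike.coe_sort_coe, Nat.card_coe_set_eq]
  congr 1
  ext g
  simp only [Set.mem_image, Set.mem_ofPred_eq, SetLike.mem_coe, mem_stab2]
  constructor
  · rintro ⟨t, ⟨t1, t2⟩, rfl⟩
    simp [mul_smul, t1, t2, inv_smul_eq_iff, s1, s2]
  · rintro ⟨g1, g2⟩
    exact ⟨s * g, by simp [mul_smul, g1, g2, s1, s2], by simp⟩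

theorem inv_count (hq : Odd q) : nb G 2 = q + q * {t : G | t * t = 1 ∧ t • a = b}.ncard := by
  have := hS.finite
  obtain ⟨U, hU⟩ := hS.exists_kernel hb
  have hc : Nat.card U = q := by have := hU.card_add_one hb; omega
  obtain ⟨z, za, zb, z1, z2⟩ := hS.exists_invol_fix hb (by
    rw [stab2 hS hb hΩ h3]; exact Nat.Odd.sub_odd hq odd_one) hb.symm
  have nU : ∀ t : G, t * t = 1 → t ≠ 1 → t ∉ U := fun t t2 t1 ht => by
    have := U.orderOf_dvd_natCard ht
    rw [ord2.2 ⟨t2, t1⟩, hc] at this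
    exact (Nat.not_even_iff_odd.2 hq) (even_iff_two_dvd.2 this)
  have zi := hS.conj_eq_inv_of_invol hU hb za zb z1 z2
  have e1 : {t : G | orderOf t = 2 ∧ t • a = a} = (fun u => u * z) '' (U : Set G) := by
    ext t
    simp only [Set.mem_image, Set.mem_ofPred_eq, SetLike.mem_coe, ord2]
    constructor
    · rintro ⟨⟨t2, t1⟩, ta⟩
      obtain ⟨y, ya, ty⟩ := hS.exists_fix_of_notMem hU hb ta (nU t t2 t1)
      have ti := hS.conj_eq_inv_of_invol hU ya ta ty t1 t2
      have : Nontrivial U := Finite.one_lt_card_iff_nontrivial.1 (by omega)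
      obtain ⟨u, hu⟩ := exists_ne (1 : U)
      refine ⟨t * z, hS.mem_of_commute hU hb u.2 (fun e => hu (Subtype.ext e)) ?_, by simp [mul_assoc, z2]⟩
      calc t * z * u * (t * z)⁻¹ = t * (z * u * z⁻¹) * t⁻¹ := by group
        _ = u := by rw [zi u u.2, ti _ (inv_mem u.2), inv_inv]
    · rintro ⟨u, hu, rfl⟩
      refine ⟨⟨?_, fun e => nU z z2 z1 ?_⟩, by rw [mul_smul, za, hU.fix u hu]⟩
      · calc u * z * (u * z) = u * (z * u * z⁻¹) * (z * z) := by group
          _ = 1 := by rw [zi u hu, z2]; simp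
      · rw [eq_inv_of_mul_eq_one_right e]; exact inv_mem hu
  have e2 : {t : G | orderOf t = 2 ∧ t • a ≠ a}.ncard = q * {t : G | t * t = 1 ∧ t • a = b}.ncard := by
    rw [← hc, ← Nat.card_coe_set_eq, ← Nat.card_coe_set_eq, ← Nat.card_prod]
    symm
    have k : ∀ (u : U) (t : G), t • a = b → ((u : G) * t * (u : G)⁻¹) • a = (u : G) • b := fun u t h => by
      rw [mul_smul, hU.fix _ (inv_mem u.2), mul_smul, h]
    refine Nat.card_eq_of_bijective (fun x => ⟨x.1 * x.2 * (x.1 : G)⁻¹, ord2.2 ⟨?_, fun e => ?_⟩, ?_⟩)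
      ⟨?_, ?_⟩
    · rw [conj_mul, x.2.2.1]; simp
    · have := x.2.2.2
      rw [conj_eq_one_iff.1 e, one_smul] at this
      exact hb this.symm
    · rw [k _ _ x.2.2.2]; exact hU.smul_ne x.1.2 hb
    · rintro ⟨u, t⟩ ⟨u', t'⟩ e
      have e' : (u : G) * t * (u : G)⁻¹ = u' * t' * (u' : G)⁻¹ := congrArg Subtype.val e
      obtain rfl : u = u' := Subtype.ext (hU.eq_of_smul_eq u.2 u'.2 hb (by
        rw [← k u t t.2.2, ← k u' t' t'.2.2, e']))
      exact Prod.ext rfl (Subtype.ext (by simpa using e'))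
    · rintro ⟨s, s2, sa⟩
      obtain ⟨u, hu, e⟩ := hU.exists_smul_eq hb sa
      refine ⟨(⟨u, hu⟩, ⟨u⁻¹ * s * u, ?_, ?_⟩), Subtype.ext (by simp [mul_assoc])⟩
      · simp [mul_assoc, ← mul_assoc s s, (ord2.1 s2).1]
      · rw [mul_smul, hU.fix u hu, mul_smul, ← e, inv_smul_smul]
  rw [← e2, nb, ← Set.ncard_inter_add_ncard_sdiff_eq_ncard _ {t : G | t • a = a}]
  congr 1
  rw [show {g : G | orderOf g = 2} ∩ {t : G | t • a = a} = _ from e1,
    Set.ncard_image_of_injective _ (mul_left_injective z), ← hc]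
  rfl

theorem inv_iff (hq : Odd q) : nb G 2 = q ^ 2 ↔ ∀ t : G, t • a = b → t • b = a → t * t = 1 := by
  have hle : {t : G | t * t = 1 ∧ t • a = b} ⊆ {t : G | t • a = b ∧ t • b = a} := fun t ht =>
    ⟨ht.2, by rw [← ht.2, ← mul_smul, ht.1, one_smul]⟩
  rw [inv_count hS hb hΩ h3 hq]
  have h1 := sw_card hS hb hΩ h3
  constructor
  · intro h t t1 t2
    have : q - 1 ≤ {t : G | t * t = 1 ∧ t • a = b}.ncard := by
      obtain ⟨r, rfl⟩ : ∃ r, q = r + 1 := ⟨q - 1, by omega⟩
      simp only [Nat.add_sub_cancel]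
      nlinarith
    exact ((Set.eq_of_subset_of_ncard_le hle (h1 ▸ this)).ge (show t ∈ _ from ⟨t1, t2⟩)).1
  · intro h
    rw [Set.Subset.antisymm hle fun t ht => ⟨h t ht.1 ht.2, ht.1⟩, h1]
    obtain ⟨r, rfl⟩ : ∃ r, q = r + 1 := ⟨q - 1, by omega⟩
    simp only [Nat.add_sub_cancel]; ring

theorem counts {p : ℕ} (hp : p.Prime) {n : ℕ} (hq : q = p ^ n) :
    nb G p = q ^ 2 - 1 ∧ ∀ k, k ≠ 1 → k ≠ p → q ∣ nb G k := by
  have := hS.finite
  have := Fact.mk hp
  obtain ⟨U, hU⟩ := hS.exists_kernel hb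
  have hc : Nat.card U = q := by have := hU.card_add_one hb; omega
  have h2 := stab2 hS hb hΩ h3
  have pq : p ∣ q := hq ▸ dvd_pow_self p (by rintro rfl; simp at hq; omega)
  obtain ⟨r, f, hr, e1, e2⟩ := hS.elem_of_large hU hb (by omega)
  obtain rfl : p = r := (Nat.prime_dvd_prime_iff_eq hp hr).1 (hp.dvd_of_dvd_pow (e2 ▸ hc ▸ pq))
  have oU : ∀ u ∈ U, u ≠ 1 → orderOf u = p := fun u hu h => orderOf_eq_prime (e1 u hu) h
  refine ⟨?_, fun k k1 kp => ?_⟩
  · have : Nontrivial U := Finite.one_lt_card_iff_nontrivial.1 (by omega)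
    obtain ⟨u, hu⟩ := exists_ne (1 : U)
    have u1 : (u : G) ≠ 1 := fun e => hu (Subtype.ext e)
    have c : centralizer {(u : G)} = U := by
      ext g
      rw [mem_centralizer_singleton_iff]
      exact ⟨fun h => hS.mem_of_commute hU hb u.2 u1 (by rw [h]; simp),
        fun h => hS.comm_of_large hU hb (by omega) g h u u.2⟩
    have e : {g : G | orderOf g = p} = {y | IsConj (u : G) y} := by
      ext g
      refine ⟨fun hg => ?_, fun hg => ?_⟩
      · have hg : orderOf g = p := hg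
        have h4 := card_fixedBy_modEq (Ω := Ω) hp (g := g) (k := 1) (by rw [pow_one, ← hg, pow_orderOf_eq_one])
        obtain ⟨⟨c, hc'⟩⟩ : Nonempty (fixedBy Ω g) := by
          by_contra h0
          rw [Nat.card_eq_zero.2 (.inl (not_nonempty_iff.1 h0)), hΩ, Nat.modEq_zero_iff_dvd] at h4
          exact hp.one_lt.ne' (Nat.dvd_one.1 ((Nat.dvd_add_right pq).1 h4))
        obtain ⟨x, rfl⟩ := hS.isPretransitive.exists_smul_eq a c
        have o : orderOf (x⁻¹ * g * x) = p := by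
          simpa [hg] using (MulAut.conj x⁻¹).orderOf_eq g
        have ga : (x⁻¹ * g * x) • a = a := by
          rw [mul_smul, mul_smul, show g • x • a = x • a from hc', inv_smul_smul]
        have gU : x⁻¹ * g * x ∈ U := by
          by_contra h0
          obtain ⟨y, ya, hy⟩ := hS.exists_fix_of_notMem hU hb ga h0
          have := Subgroup.orderOf_dvd_natCard _ (mem_stab2.2 ⟨ga, hy⟩)
          rw [o, stab2 hS ya hΩ h3] at this
          exact hp.one_lt.ne' (Nat.dvd_one.1 ((Nat.dvd_sub_iff_right (by omega) pq).1 this))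
        have g1 : x⁻¹ * g * x ≠ 1 := fun e => hp.one_lt.ne' (by rw [← o, e, orderOf_one])
        obtain ⟨h, ha, hb', hc''⟩ := hS.trans3 a b ((u : G) • b) a b ((x⁻¹ * g * x) • b) hb.symm
          (hU.smul_ne u.2 hb).symm (fun e => u1 (hU.eq_one_of_smul_eq u.2 hb e.symm)) hb.symm
          (hU.smul_ne gU hb).symm (fun e => g1 (hU.eq_one_of_smul_eq gU hb e.symm))
        have := hU.eq_of_smul_eq (hU.conj h ha u u.2) gU hb (by
          rw [mul_smul, inv_smul_eq_iff.2 hb'.symm, mul_smul, hc''])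
        exact isConj_iff.2 ⟨x * h, by rw [mul_inv_rev, ← mul_assoc, mul_assoc x, mul_assoc x, this]; group⟩
      · obtain ⟨x, rfl⟩ := isConj_iff.1 hg
        exact ((MulAut.conj x).orderOf_eq u).trans (oU u u.2 u1)
    rw [nb, e, H79.ncard_isConj_eq_index, c]
    have h5 := U.card_mul_index
    rw [hS.card_eq hU hb, h2, hc, mul_comm (q + 1), mul_assoc] at h5
    rw [Nat.eq_of_mul_eq_mul_left (by omega) h5, ← Nat.sq_sub_sq, one_pow]
  · rw [← hc, nb, ← Nat.card_coe_set_eq]
    refine @card_dvd_of_free U G _ (MulAction.compHom G ((MulAut.conj (G := G)).comp U.subtype)) _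
      (fun g x hx => ((MulAut.conj (g : G)).orderOf_eq x).trans hx) fun g x hx e => ?_
    by_contra g1
    have e' : (g : G) * x * (g : G)⁻¹ = x := e
    have := hS.mem_of_commute hU hb (g := x) g.2 (fun k => g1 (Subtype.ext k)) (by
      rw [mul_inv_eq_iff_eq_mul] at e' ⊢; exact e'.symm)
    by_cases x1 : x = 1
    · exact k1 (by rw [← hx, x1, orderOf_one])
    · exact kp (hx.symm.trans (oU x this x1))

end

theorem sharp3_pgl (F : Type*) [Field F] [Finite F] : Sharp3 (PGL(2, F)) (ℙ F (Fin 2 → F)) := by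
  have h3 : 3 ≤ Nat.card (ℙ F (Fin 2 → F)) := by
    rw [H10.card_projLine]; have := H10.two_le_card_field (F := F); omega
  have h2 : IsMultiplyPretransitive (PGL(2, F)) (ℙ F (Fin 2 → F)) 2 :=
    have := H10.PGL_two_isMultiplyPretransitive (F := F)
    isMultiplyPretransitive_of_le (n := 3) (by norm_num) h3
  exact ⟨⟨fun a b c d hab hcd => H26.trans2 h2 hab hcd,
    fun g a b c hab hbc hac => H10.PGL_two_eq_one_of_fix hab hac hbc,
    fun g hg => H10.PGL_two_eq_one_of_fix (H10.ptInf_ne_ptAff (0 : F)) (H10.ptInf_ne_ptAff (1 : F))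
      (fun e => zero_ne_one (H10.ptAff_injective e)) (hg _) (hg _) (hg _)⟩,
    H26.trans3_iff.1 H10.PGL_two_isMultiplyPretransitive⟩

theorem swap_pgl {F : Type*} [Field F] (t : PGL(2, F)) (h1 : t • H10.ptInf F = H10.ptAff 0)
    (h2 : t • H10.ptAff (0 : F) = H10.ptInf F) : t * t = 1 := by
  refine H10.PGL_two_eq_one_of_fix (H10.ptInf_ne_ptAff (0 : F)) (H10.ptInf_ne_ptAff (1 : F))
    (fun e => zero_ne_one (H10.ptAff_injective e)) (by rw [mul_smul, h1, h2]) (by rw [mul_smul, h2, h1]) ?_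
  induction t using Matrix.ProjGenLinGroup.induction_on with | mk A =>
  rw [H10.mk_smul_proj] at h1 h2
  simp only [H10.ptInf, H10.ptAff, Projectivization.smul_mk, H10.mk_eq_mk_iff_det, H10.GL_smul_vec] at h1 h2
  have a0 : A.val 0 0 = 0 := by simpa using h1
  have a1 : A.val 1 1 = 0 := by simpa using h2
  have a2 : A.val 1 0 ≠ 0 := fun e => by simpa [Matrix.det_fin_two, a0, e] using A.det_ne_zero
  have e1 : A • H10.ptAff (1 : F) = H10.ptAff (A.val 0 1 / A.val 1 0) :=
    (H10.GL_smul_ptAff_eq_iff ..).2 (by rw [a0, a1]; field_simp; simp)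
  rw [mul_smul, H10.mk_smul_proj, H10.mk_smul_proj, e1, H10.GL_smul_ptAff_eq_iff, a0, a1]
  field_simp; ring

end H15.NP
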