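import Cfsg.Agent.Lib.NsePG.A

/-! Recognition of `PGL₂(q)` by its order and the numbers of elements of the same order. -/

set_option autoImplicit false
set_option linter.unusedSectionVars false

namespace H15.NP

open MulAction Subgroup H27 Finset
open scoped MatrixGroups

variable {G : Type*} [Group G] [Finite G]

theorem nb_one : nb G 1 = 1 := by simp [nb]

theorem nb_even {n : ℕ} (h : ¬ 2 ∣ nb G n) : n = 1 ∨ n = 2 := by
  classical
  have := Fintype.ofFinite G
  have := Fact.mk Nat.prime_two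
  let σ : Equiv.Perm {g : G // orderOf g = n} := Function.Involutive.toPerm
    (fun x => ⟨x.1⁻¹, by rw [orderOf_inv, x.2]⟩) fun x => Subtype.ext (inv_inv _)
  obtain ⟨⟨x, rfl⟩, e⟩ := Equiv.Perm.exists_fixed_point_of_prime (p := 2) (n := 1) (σ := σ)
    (by rwa [← Nat.card_eq_fintype_card]) (Equiv.ext fun x => Subtype.ext (inv_inv _))
  exact (Nat.dvd_prime Nat.prime_two).1 (orderOf_dvd_of_pow_eq_one
    (by rw [sq, mul_eq_one_iff_eq_inv.2 (congrArg Subtype.val e).symm]))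

theorem total : ∑ n ∈ (Nat.card G).divisors, nb G n = Nat.card G := by
  classical
  have := Fintype.ofFinite G
  have e : ∀ n, nb G n = #{g : G | orderOf g = n} := fun n => by
    rw [nb, Set.ncard_eq_toFinset_card']; congr 1; ext; simp
  simp only [e, Nat.card_eq_fintype_card]
  rw [sum_card_orderOf_eq_card_pow_eq_one Fintype.card_ne_zero]
  simp

variable {p n q : ℕ} (hp : p.Prime) (hq : q = p ^ n) (ho : Odd q) (h3 : 3 < q)
  (hG : Nat.card G = q * (q ^ 2 - 1))
include hp hq ho h3 hG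

omit ho hG in
theorem p_dvd : p ∣ q := hq ▸ dvd_pow_self p (by rintro rfl; simp at hq; omega)

omit hG in
theorem p_ne : p ≠ 2 := by
  rintro rfl
  exact (Nat.not_even_iff_odd.2 ho) (even_iff_two_dvd.2 (p_dvd hp hq h3))

omit ho hG hp hq in
theorem cop_q : (q ^ 2 - 1).Coprime q := by
  have : (q ^ 2 - 1).Coprime (q ^ 2) :=
    (Nat.coprime_self_sub_left (Nat.one_le_pow 2 q (by omega))).2 (by simp)
  exact this.coprime_dvd_right (dvd_pow_self q two_ne_zero)

theorem nb_p (h : ∀ k, nb G k = 1 ∨ nb G k = q ^ 2 - 1 ∨ q ∣ nb G k) : nb G p = q ^ 2 - 1 := by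
  have pq := p_dvd hp hq h3
  have h1 := H79.frobenius (G := G) (n := p) (hG ▸ pq.mul_right _)
  have e : {x : G | x ^ p = 1} = insert 1 {g : G | orderOf g = p} := by
    have := Fact.mk hp
    ext x
    by_cases x1 : x = 1 <;> simp [x1, orderOf_eq_prime_iff]
  rw [e, Set.ncard_insert_of_notMem (by simpa using hp.one_lt.ne)] at h1
  rcases h p with k | k | k
  · rcases nb_even (G := G) (n := p) (by omega) with e | e
    exacts [absurd e hp.one_lt.ne', absurd e (p_ne hp hq ho h3)]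
  · exact k
  · exact absurd (Nat.dvd_one.1 ((Nat.dvd_add_right (pq.trans k)).1 h1)) hp.one_lt.ne'

theorem nb_dvd (h : ∀ k, nb G k = 1 ∨ nb G k = q ^ 2 - 1 ∨ q ∣ nb G k) (h2 : nb G 2 = q ^ 2)
    {k : ℕ} (k1 : k ≠ 1) (kp : k ≠ p) : q ∣ nb G k := by
  classical
  have q2 : 16 ≤ q ^ 2 := by nlinarith
  have n1 : ∀ k, k ≠ 1 → nb G k ≠ 1 := fun k k1 e => by
    rcases nb_even (G := G) (n := k) (by omega) with rfl | rfl <;> omega
  by_contra hc
  have ek : nb G k = q ^ 2 - 1 := ((h k).resolve_left (n1 k k1)).resolve_right hc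
  let D := (Nat.card G).divisors
  have mem : ∀ j, nb G j = q ^ 2 - 1 → j ∈ (D.erase 1).filter fun j => nb G j = q ^ 2 - 1 := fun j e => by
    obtain ⟨g, rfl⟩ := Set.nonempty_of_ncard_ne_zero (s := {g : G | orderOf g = j}) (by
      change nb G j ≠ 0; omega)
    refine mem_filter.2 ⟨mem_erase.2 ⟨fun k => ?_, Nat.mem_divisors.2
      ⟨orderOf_dvd_natCard g, Nat.card_pos.ne'⟩⟩, e⟩
    rw [k, nb_one] at e; omega
  have t := total (G := G)
  rw [← add_sum_erase _ _ (Nat.one_mem_divisors.2 Nat.card_pos.ne'), nb_one,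
    ← sum_filter_add_sum_filter_not _ (fun j => nb G j = q ^ 2 - 1),
    sum_const_nat fun j hj => (mem_filter.1 hj).2] at t
  obtain ⟨c, hc'⟩ : q ∣ ∑ j ∈ (D.erase 1).filter fun j => ¬ nb G j = q ^ 2 - 1, nb G j :=
    dvd_sum fun j hj => ((h j).resolve_left (n1 j (mem_erase.1 (mem_filter.1 hj).1).1)).resolve_left
      (mem_filter.1 hj).2
  have a2 := one_lt_card.2 ⟨k, mem k ek, p, mem p (nb_p hp hq ho h3 hG h), kp⟩
  rw [hc'] at t
  generalize #((D.erase 1).filter fun j => nb G j = q ^ 2 - 1) = a at t a2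
  rw [hG] at t
  obtain ⟨w, hw⟩ : ∃ w, q ^ 2 = w + 1 := ⟨q ^ 2 - 1, by omega⟩
  rw [hw, Nat.add_sub_cancel] at t
  have a3 : a < q := by nlinarith
  have a4 : (q : ℤ) ∣ a - 1 := ⟨a * q + c - w, by
    have t' : (1 : ℤ) + (a * w + q * c) = q * w := by exact_mod_cast t
    have hw' : (q : ℤ) ^ 2 = w + 1 := by exact_mod_cast hw
    linear_combination (-1 : ℤ) * t' - a * hw'⟩
  have := Int.le_of_dvd (by omega) a4
  omega

theorem ord_p (h : ∀ k, nb G k = 1 ∨ nb G k = q ^ 2 - 1 ∨ q ∣ nb G k) (h2 : nb G 2 = q ^ 2)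
    {x : G} (hx : p ∣ orderOf x) : orderOf x = p := by
  by_contra hc
  let D : Set G := {g | p ∣ orderOf g ∧ orderOf g ≠ p}
  have h1 := H79.weisner (G := G) (b := q ^ 2 - 1) (n := p) (hG ▸ dvd_mul_left _ _)
    ((cop_q h3).symm.coprime_dvd_left (p_dvd hp hq h3))
  have e : {x : G | p ∣ orderOf x}.ncard = nb G p + D.ncard := by
    rw [nb, ← Set.ncard_union_eq (Set.disjoint_left.2 fun g a b => b.2 a)]
    congr 1
    ext g
    by_cases k : orderOf g = p <;> simp [D, k]
  rw [e, nb_p hp hq ho h3 hG h, Nat.dvd_add_right dvd_rfl] at h1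
  have h4 : q ∣ D.ncard := H79.dvd_ncard_of_fibers D (Set.toFinite _) q orderOf fun g hg => by
    have : {y ∈ D | orderOf y = orderOf g} = {y | orderOf y = orderOf g} := by
      ext y
      exact ⟨fun k => k.2, fun k => ⟨⟨k ▸ hg.1, k ▸ hg.2⟩, k⟩⟩
    rw [this]
    exact nb_dvd hp hq ho h3 hG h h2 (fun k => hp.one_lt.ne' (Nat.dvd_one.1 (k ▸ hg.1))) hg.2
  have h5 := Nat.le_of_dvd ((Set.ncard_pos (s := D)).2 ⟨x, hx, hc⟩) ((cop_q h3).symm.mul_dvd_of_dvd_of_dvd h4 h1)
  have h6 : D.ncard < (Set.univ : Set G).ncard := Set.ncard_lt_ncard ⟨Set.subset_univ _, fun k =>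
    hp.one_lt.ne' (Nat.dvd_one.1 (by simpa using (k (Set.mem_univ 1)).1))⟩
  rw [Set.ncard_univ, hG] at h6
  omega

section
variable (hm : nb G p = q ^ 2 - 1) (hx : ∀ x : G, p ∣ orderOf x → orderOf x = p)
include hm hx

omit hm hq ho h3 hG in
theorem cent_pow {x y : G} (ox : orderOf x = p) (c : y * x = x * y) : y ^ p = 1 := by
  by_cases k : p ∣ orderOf y
  · rw [← hx y k, pow_orderOf_eq_one]
  have e := (show Commute y x from c).orderOf_mul_eq_mul_orderOf_of_coprime
    (ox ▸ ((Nat.Prime.coprime_iff_not_dvd hp).2 k).symm)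
  rw [ox] at e
  have := hx _ (e ▸ dvd_mul_left _ _)
  rw [e, mul_eq_right₀ hp.ne_zero, orderOf_eq_one_iff] at this
  rw [this, one_pow]

theorem cent_card {x : G} (ox : orderOf x = p) : Nat.card (centralizer {x}) = q ∧
    ∀ y, orderOf y = p → IsConj x y := by
  have := Fact.mk hp
  obtain ⟨j, hj⟩ := IsPGroup.iff_card.1 (show IsPGroup p (centralizer {x}) from fun y =>
    ⟨1, Subtype.ext (by simpa using cent_pow hp hx ox (mem_centralizer_singleton_iff.1 y.2))⟩)
  have h1 : Nat.card (centralizer {x}) ∣ q := by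
    refine Nat.Coprime.dvd_of_dvd_mul_right (k := _) (n := q ^ 2 - 1) ?_ (hG ▸ card_subgroup_dvd_card _)
    exact hj ▸ ((cop_q h3).symm.coprime_dvd_left (p_dvd hp hq h3)).pow_left j
  have h2 := Nat.le_of_dvd (by omega) h1
  have h4 := (centralizer {x}).card_mul_index
  have hs : {y | IsConj x y} ⊆ {g : G | orderOf g = p} := fun y hy => by
    obtain ⟨g, rfl⟩ := isConj_iff.1 hy
    exact ((MulAut.conj g).orderOf_eq x).trans ox
  have h5 := Set.ncard_le_ncard hs
  have h6 := H79.ncard_isConj_eq_index x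
  change _ ≤ nb G p at h5
  have q2 : 16 ≤ q ^ 2 := by nlinarith
  rw [hG, ← h6] at h4
  obtain ⟨w, hw⟩ : ∃ w, q ^ 2 = w + 1 := ⟨q ^ 2 - 1, by omega⟩
  rw [hw, Nat.add_sub_cancel] at h4 hm
  refine ⟨by nlinarith, fun y hy => (Set.eq_of_subset_of_ncard_le hs ?_).ge hy⟩
  change nb G p ≤ _
  nlinarith

variable [Fact p.Prime]

omit hm hx ho in
theorem syl_card (P : Sylow p G) : Nat.card P = q := by
  rw [P.card_eq_multiplicity, hG, Nat.factorization_mul (by omega) (by have : 16 ≤ q ^ 2 := by nlinarith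
                                                                       omega),
    Finsupp.add_apply, Nat.factorization_eq_zero_of_not_dvd (n := q ^ 2 - 1)
      ((Nat.Prime.coprime_iff_not_dvd hp).1 ((cop_q h3).symm.coprime_dvd_left (p_dvd hp hq h3))), hq]
  simp [hp.factorization_pow]

omit hm hq ho h3 hG in
theorem syl_ord (P : Sylow p G) {x : G} (h : x ∈ P) (x1 : x ≠ 1) : orderOf x = p := by
  obtain ⟨k, hk⟩ := P.isPGroup' ⟨x, h⟩
  obtain ⟨j, -, e⟩ := (Nat.dvd_prime_pow hp).1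
    (orderOf_dvd_of_pow_eq_one (show x ^ p ^ k = 1 from congrArg Subtype.val hk))
  refine hx x (e ▸ dvd_pow_self p ?_)
  rintro rfl
  exact x1 (orderOf_eq_one_iff.1 e)

theorem syl_cent (P : Sylow p G) {x : G} (h : x ∈ P) (x1 : x ≠ 1) : centralizer {x} = P := by
  have cP := syl_card hp hq h3 hG P
  have k : ∀ {x : G}, x ∈ P → x ≠ 1 → (∀ y ∈ P, y * x = x * y) → centralizer {x} = P :=
    fun {x} h x1 c => (eq_of_le_of_card_ge (fun y hy => mem_centralizer_singleton_iff.2 (c y hy))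
      ((cent_card hp hq ho h3 hG hm hx (syl_ord hp hx P h x1)).1.trans cP.symm).le).symm
  have : Nontrivial P := Finite.one_lt_card_iff_nontrivial.1 (by omega)
  have := P.isPGroup'.center_nontrivial
  obtain ⟨⟨⟨z, zP⟩, zc⟩, z1⟩ := exists_ne (1 : center P)
  have z1 : z ≠ 1 := fun e => z1 (Subtype.ext (Subtype.ext e))
  have cz := k zP z1 fun y hy => congrArg Subtype.val (mem_center_iff.1 zc ⟨y, hy⟩)
  have oz := syl_ord hp hx P zP z1
  obtain ⟨g, hg⟩ := isConj_iff.1 ((cent_card hp hq ho h3 hG hm hx oz).2 z⁻¹ (by rw [orderOf_inv, oz]))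
  have mz : ∀ y, y ∈ P ↔ y * z = z * y := fun y => by
    rw [← mem_centralizer_singleton_iff, cz]; rfl
  have gP : g ∉ P := fun e => by
    rw [(mz g).1 e, mul_inv_cancel_right, ← mul_eq_one_iff_eq_inv] at hg
    exact p_ne hp hq ho h3 (oz.symm.trans (ord2.2 ⟨hg, z1⟩))
  have hg' : g * z⁻¹ * g⁻¹ = z := by rw [← conj_inv, hg, inv_inv]
  have g2 : g * g ∈ P := (mz _).2 (by
    rw [← mul_inv_eq_iff_eq_mul, mul_inv_rev, ← mul_assoc, mul_assoc g g, mul_assoc g, hg, hg'])
  have gp : ¬ p ∣ orderOf g := fun e => gP (by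
    obtain ⟨m, hm⟩ := hp.odd_of_ne_two (p_ne hp hq ho h3)
    have : g = ((g * g) ^ m)⁻¹ := eq_inv_of_mul_eq_one_right (by
      rw [← sq, ← pow_mul, ← pow_succ, ← hm, ← hx g e, pow_orderOf_eq_one])
    exact this ▸ inv_mem (pow_mem g2 m))
  have gg : g * g = 1 := by
    by_contra e
    exact gp (syl_ord hp hx P g2 e ▸ sq g ▸ orderOf_pow_dvd 2)
  refine k h x1 fun y hy => comm_of_conj_eq_inv P g (conj_eq_inv_of_fpf P g (fun y hy => (mz _).2 ?_)
    (by simp [gg]) fun y hy e => ?_) y hy x h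
  · rw [← hg', conj_mul, conj_mul, (show Commute y z from (mz y).1 hy).inv_right.eq]
  · by_contra y1
    have := cent_pow hp hx (syl_ord hp hx P hy y1) (mul_inv_eq_iff_eq_mul.1 e)
    rcases (Nat.dvd_prime hp).1 (orderOf_dvd_of_pow_eq_one this) with e | e
    · exact gP (orderOf_eq_one_iff.1 e ▸ one_mem _)
    · exact gp (e ▸ dvd_rfl)

theorem syl_free {P Q : Sylow p G} (ne : Q ≠ P) {x : G} (h : x ∈ P) (e : x • Q = Q) : x = 1 := by
  by_contra x1
  have : x ∈ Q := ((P.isPGroup'.inf_normalizer_sylow Q).le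
    ⟨h, Sylow.smul_eq_iff_mem_normalizer.1 e⟩).2
  exact ne (Sylow.ext ((syl_cent hp hq ho h3 hG hm hx Q this x1).symm.trans
    (syl_cent hp hq ho h3 hG hm hx P h x1)))

theorem syl_num : Nat.card (Sylow p G) = q + 1 := by
  have e : {g : G | orderOf g = p} ≃ Σ P : Sylow p G, ↥((P : Set G) \ {1}) :=
    (Equiv.ofBijective (fun x => ⟨x.2, syl_ord hp hx x.1 x.2.2.1 x.2.2.2⟩) ⟨by
      rintro ⟨P, x, h, x1⟩ ⟨Q, y, h', y1⟩ e
      obtain rfl : x = y := congrArg Subtype.val e
      obtain rfl : P = Q := Sylow.ext ((syl_cent hp hq ho h3 hG hm hx P h x1).symm.trans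
        (syl_cent hp hq ho h3 hG hm hx Q h' x1))
      rfl, by
      rintro ⟨x, ox⟩
      obtain ⟨P, hP⟩ := (IsPGroup.of_card (p := p) (G := zpowers x) (n := 1)
        (by rw [Nat.card_zpowers, pow_one]; exact ox)).exists_le_sylow
      exact ⟨⟨P, x, hP (mem_zpowers x), fun e => hp.one_lt.ne' (by
        rw [← show orderOf x = p from ox, show x = 1 from e, orderOf_one])⟩, rfl⟩⟩).symm
  have h1 := Nat.card_congr e
  have := Fintype.ofFinite (Sylow p G)
  rw [Nat.card_coe_set_eq, Nat.card_sigma, sum_congr rfl (g := fun _ => q - 1) fun P _ => by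
    rw [Nat.card_coe_set_eq, Set.ncard_sdiff_singleton_of_mem (show (1 : G) ∈ (P : Set G) from one_mem P),
      ← Nat.card_coe_set_eq, ← syl_card hp hq h3 hG P]; rfl] at h1
  rw [sum_const, card_univ, ← Nat.card_eq_fintype_card, smul_eq_mul] at h1
  refine Nat.eq_of_mul_eq_mul_right (show 0 < q - 1 by omega) ?_
  rw [← h1, ← Nat.sq_sub_sq, one_pow, ← hm, nb]

theorem syl_kernel (P : Sylow p G) : IsKernel (P : Subgroup G) P := by
  have fix : ∀ u ∈ (P : Subgroup G), u • P = P := fun u hu =>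
    Sylow.smul_eq_iff_mem_normalizer.2 (le_normalizer hu)
  refine ⟨fix, fun g hg u hu => (mem_normalizer_iff.1 (Sylow.smul_eq_iff_mem_normalizer.1 hg) u).1 hu,
    fun y z hy hz => ?_⟩
  have inj : Function.Injective fun u : P => (⟨(u : G) • y, fun e => hy (smul_left_cancel (u : G)
      (e.trans (fix u u.2).symm))⟩ : ↥({P}ᶜ : Set (Sylow p G))) := fun u v e => by
    have e' : (u : G) • y = (v : G) • y := congrArg Subtype.val e
    exact Subtype.ext (inv_mul_eq_one.1 (syl_free hp hq ho h3 hG hm hx hy (mul_mem (inv_mem u.2) v.2)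
      (by rw [mul_smul, ← e', inv_smul_smul])))
  obtain ⟨u, hu⟩ := (inj.bijective_of_nat_card_le (by
    rw [Nat.card_coe_set_eq, Set.ncard_compl, syl_num hp hq ho h3 hG hm hx]
    rw [Set.ncard_singleton]
    exact (syl_card hp hq h3 hG P).ge)).2 ⟨z, hz⟩
  exact ⟨u, congrArg Subtype.val hu, fun v hv => inj ((Subtype.ext hv).trans hu.symm)⟩

theorem syl_sharp : Sharp3 G (Sylow p G) := by
  have K := syl_kernel hp hq ho h3 hG hm hx
  have N := syl_num hp hq ho h3 hG hm hx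
  have two : ∀ a b c d : Sylow p G, a ≠ b → c ≠ d → ∃ g : G, g • a = c ∧ g • b = d :=
    fun a b c d hab hcd => by
      obtain ⟨g, rfl⟩ := exists_smul_eq G a c
      obtain ⟨u, hu, e⟩ := (K _).exists_smul_eq (y := g • b) (fun e => hab (smul_left_cancel g e).symm)
        hcd.symm
      exact ⟨u * g, by rw [mul_smul, (K _).fix u hu], by rw [mul_smul, e]⟩
  have three : ∀ (g : G) (a b c : Sylow p G), a ≠ b → b ≠ c → a ≠ c → g • a = a → g • b = b →
      g • c = c → g = 1 := fun g a b c hab hbc hac ga gb gc => by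
    obtain ⟨u, hu, rfl⟩ := (K a).exists_smul_eq hab.symm hac.symm
    have := (K a).eq_of_smul_eq ((K a).conj g ga u hu) hu hab.symm (by
      rw [mul_smul, inv_smul_eq_iff.2 gb.symm, mul_smul, gc])
    refine (K a).eq_one_of_smul_eq ?_ hab.symm gb
    rw [← syl_cent hp hq ho h3 hG hm hx a hu (by rintro rfl; simp at hbc)]
    exact mem_centralizer_singleton_iff.2 (mul_inv_eq_iff_eq_mul.1 this)
  have Z : ZData G (Sylow p G) := ⟨two, three, fun g hg => by
    have : Nontrivial (Sylow p G) := Finite.one_lt_card_iff_nontrivial.1 (by omega)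
    obtain ⟨a, b, hab⟩ := exists_pair_ne (Sylow p G)
    obtain ⟨c, hca, hcb⟩ := Sharp3.exists_third (Ω := Sylow p G) (by omega) a b
    exact three g a b c hab hcb.symm hca.symm (hg _) (hg _) (hg _)⟩
  refine ⟨Z, fun a b c d e f hab hac hbc hde hdf hef => ?_⟩
  obtain ⟨g, rfl, rfl⟩ := two a b d e hab hde
  have h1 := Z.card_eq (K (g • a)) hde.symm
  rw [hG, syl_card hp hq h3 hG, show q ^ 2 - 1 = (q + 1) * (q - 1) from Nat.sq_sub_sq q 1, ← mul_assoc,
    mul_comm q] at h1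
  have h2 := Nat.eq_of_mul_eq_mul_left (by positivity) h1
  have inj : Function.Injective fun h : ↥(stabilizer G (g • a) ⊓ stabilizer G (g • b)) =>
      (⟨(h : G) • g • c, fun e => hac (smul_left_cancel g (smul_left_cancel (h : G)
        (e.trans (mem_stab2.1 h.2).1.symm))).symm, fun e => hbc (smul_left_cancel g
          (smul_left_cancel (h : G) (e.trans (mem_stab2.1 h.2).2.symm))).symm⟩ :
        {x | x ≠ g • a ∧ x ≠ g • b}) := by
    rintro ⟨h, hh⟩ ⟨k, hk⟩ e
    rw [mem_stab2] at hh hk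
    exact Subtype.ext (Z.eq_of_three hde (by simpa using hbc) (by simpa using hac)
      (hh.1.trans hk.1.symm) (hh.2.trans hk.2.symm) (congrArg Subtype.val e))
  obtain ⟨⟨h, hh⟩, e⟩ := (inj.bijective_of_nat_card_le (by
    rw [ZData.card_compl_pair hde.symm, N, ← h2]; omega)).2 ⟨f, hdf.symm, hef.symm⟩
  rw [mem_stab2] at hh
  exact ⟨h * g, by rw [mul_smul, hh.1], by rw [mul_smul, hh.2], by
    rw [mul_smul]; exact congrArg Subtype.val e⟩

end

theorem pgl_of (h : ∀ k, nb G k = 1 ∨ nb G k = q ^ 2 - 1 ∨ q ∣ nb G k) (h2 : ∃ k, nb G k = q ^ 2) :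
    ∃ (F : Type) (_ : Field F) (_ : Fintype F), Fintype.card F = q ∧ Nonempty (G ≃* PGL(2, F)) := by
  have := Fact.mk hp
  obtain ⟨k, h2⟩ := h2
  obtain rfl : k = 2 := (nb_even (G := G) (by
    rw [h2, ← even_iff_two_dvd, Nat.not_even_iff_odd]; exact ho.pow)).resolve_left (by
      rintro rfl; rw [nb_one] at h2; nlinarith)
  have hm := nb_p hp hq ho h3 hG h
  have hx := fun x : G => ord_p hp hq ho h3 hG h h2 (x := x)
  have hS := syl_sharp hp hq ho h3 hG hm hx
  have N := syl_num hp hq ho h3 hG hm hx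
  have : Nontrivial (Sylow p G) := Finite.one_lt_card_iff_nontrivial.1 (by omega)
  obtain ⟨b, a, hb⟩ := exists_pair_ne (Sylow p G)
  obtain ⟨c, hca, hcb⟩ := Sharp3.exists_third (Ω := Sylow p G) (by omega) a b
  have k := (inv_iff hS hb N h3.le ho).1 h2
  obtain ⟨s, s1, s2⟩ := hS.two a b b a hb.symm hb
  obtain ⟨F, _, _, hF, e⟩ := hS.pgl2_of_comm hb hca hcb (comm_of_conj_eq_inv _ s fun h hh => by
    rw [mem_stab2] at hh
    have := k (s * h) (by rw [mul_smul, hh.1, s1]) (by rw [mul_smul, hh.2, s2])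
    rw [inv_eq_of_mul_eq_one_right (k s s1 s2), eq_inv_iff_mul_eq_one, mul_assoc, this])
  exact ⟨F, inferInstance, inferInstance, by omega, e⟩

end H15.NP
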